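import Cfsg.Agent.H813.HT.P2
import Cfsg.Agent.H528.HT.Semi

/-!
# The semilinear case of a half-transitive group (HT-E P2), final form
-/

set_option autoImplicit false

namespace Cfsg.Agent.H813.HT

open Cfsg.Agent.H828.HT
open Cfsg.Agent.H662.HT

universe u

variable {p : ℕ} [Fact p.Prime] {V : Type u} [AddCommGroup V] [Module (ZMod p) V] [Finite V]

/-- P2 -/
theorem semilinear_case [Nontrivial V] {G A : Subgroup (V ≃ₗ[ZMod p] V)} (_hAG : A ≤ G) (_hcop : ¬ p ∣ Nat.card G)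
    (hself : ∀ g ∈ G, (∀ a ∈ A, g * a = a * g) → g ∈ A) (_hAc : ∀ a ∈ A, ∀ b ∈ A, a * b = b * a)
    {K : Type u} [Field K] [Module K V] {χ : A →* Kˣ} {σ : G →* (K ≃+* K)} (hK : KS G A K χ σ)
    {h : ℕ} (hh : Half G h) (h2 : 2 ≤ h) :
    ∃ S : Subgroup (V ≃ₗ[ZMod p] V), IsCyclic S ∧ Nat.card S = Nat.card V - 1 ∧
      ∀ g ∈ G, ∀ s ∈ S, g * s * g⁻¹ ∈ S :=
  semilinear_case_of Cfsg.Agent.H528.HT.card_fix_semi Cfsg.Agent.H528.HT.card_norm_semi hself hK hh h2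

end Cfsg.Agent.H813.HT
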