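import Cfsg.Agent.H662.HT.Two

/-!
# The semilinear case of a half-transitive group (HT-E P2)
-/

set_option autoImplicit false

open Finset

namespace Cfsg.Agent.H813.HT

open Cfsg.Agent.H828.HT
open Cfsg.Agent.H662.HT

universe u

/-! ### Arithmetic -/

theorem arith {q f r N : ℕ} (hq : 2 ≤ q) (hr : 2 ≤ r) (hN : (q - 1) * N ≤ q ^ r - 1)
    (hf : f ^ r - 1 ≤ N * (f - 1)) : f ≤ q := by
  by_contra hc
  push Not at hc
  have hf1 : 1 ≤ f ^ r := Nat.one_le_pow _ _ (by omega)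
  have hq1 : 1 ≤ q ^ r := Nat.one_le_pow _ _ (by omega)
  have e1 : (∑ i ∈ range r, f ^ i) * (f - 1) = f ^ r - 1 := by
    zify [show 1 ≤ f by omega, hf1]
    exact geom_sum_mul (f : ℤ) r
  have e2 : (∑ i ∈ range r, q ^ i) * (q - 1) = q ^ r - 1 := by
    zify [show 1 ≤ q by omega, hq1]
    exact geom_sum_mul (q : ℤ) r
  have h1 : (∑ i ∈ range r, f ^ i) ≤ N := by
    refine Nat.le_of_mul_le_mul_right (?_ : _ * (f - 1) ≤ _ * (f - 1)) (by omega)
    rw [e1]; exact hf
  have h2 : N ≤ ∑ i ∈ range r, q ^ i := by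
    refine Nat.le_of_mul_le_mul_right (?_ : _ * (q - 1) ≤ _ * (q - 1)) (by omega)
    rw [e2, mul_comm]; exact hN
  have h3 : ∑ i ∈ range r, q ^ i < ∑ i ∈ range r, f ^ i := by
    refine Finset.sum_lt_sum (fun i _ => Nat.pow_le_pow_left hc.le i) ⟨1, ?_, ?_⟩
    · rw [Finset.mem_range]; omega
    · simpa using hc
  omega

/-! ### Automorphisms of a finite field -/

/-- ring automorphisms are algebra automorphisms over the prime field -/
theorem exists_pow_eq {K : Type u} [Field K] [Finite K] {r : ℕ} (hr : r.Prime) {α β : K ≃+* K}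
    (hα : α ^ r = 1) (hα1 : α ≠ 1) (hβ : β ^ r = 1) : ∃ j : ℕ, α ^ j = β := by
  classical
  have : Fintype (K ≃+* K) := Fintype.ofInjective (fun g : K ≃+* K => (g : K → K)) DFunLike.coe_injective
  -- cyclicity
  obtain ⟨q, hq⟩ := CharP.exists K
  have : Fact q.Prime := ⟨CharP.char_is_prime K q⟩
  let : Algebra (ZMod q) K := ZMod.algebra K q
  have hcyc : IsCyclic (K ≃+* K) := by
    let F : (K ≃+* K) →* (K ≃ₐ[ZMod q] K) :=
      { toFun := fun g => AlgEquiv.ofRingEquiv (f := g) (fun c => by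
          have := RingHom.congr_fun (Subsingleton.elim ((g : K →+* K).comp (algebraMap (ZMod q) K)) (algebraMap (ZMod q) K)) c
          exact this)
        map_one' := by ext; rfl
        map_mul' := fun _ _ => by ext; rfl }
    refine isCyclic_of_injective F ?_
    intro a b hab
    ext x
    exact DFunLike.congr_fun hab x
  have : Fact r.Prime := ⟨hr⟩
  have hr0 : orderOf α = r := orderOf_eq_prime hα hα1
  have h1 := IsCyclic.card_pow_eq_one_le (α := K ≃+* K) hr.pos
  have h2 : (Finset.univ.filter (fun x => x ∈ Subgroup.zpowers α)) ⊆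
      Finset.univ.filter (fun x : K ≃+* K => x ^ r = 1) := by
    intro x hx
    simp only [Finset.mem_filter, Finset.mem_univ, true_and] at hx ⊢
    obtain ⟨i, rfl⟩ := Subgroup.mem_zpowers_iff.1 hx
    rw [← zpow_natCast, ← zpow_mul, mul_comm, zpow_mul, zpow_natCast, hα, one_zpow]
  have h3 : (Finset.univ.filter (fun x => x ∈ Subgroup.zpowers α)).card = r := by
    rw [← Fintype.card_subtype, ← Nat.card_eq_fintype_card]
    exact (Nat.card_zpowers α).trans hr0
  have h4 := Finset.eq_of_subset_of_card_le h2 (by rw [h3]; exact h1)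
  have h5 : β ∈ Finset.univ.filter (fun x => x ∈ Subgroup.zpowers α) := by
    rw [h4]; simpa using hβ
  simp only [Finset.mem_filter, Finset.mem_univ, true_and] at h5
  have h6 := (isOfFinOrder_of_finite α).mem_powers_iff_mem_zpowers.2 h5
  obtain ⟨j, hj⟩ := h6
  exact ⟨j, hj⟩

variable {p : ℕ} [Fact p.Prime] {V : Type u} [AddCommGroup V] [Module (ZMod p) V]

/-! ### Scalars -/

/-- scalar multiplication is linear over the prime field -/
def scal (K : Type u) [Field K] [Module K V] : Kˣ →* (V ≃ₗ[ZMod p] V) where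
  toFun k :=
    { toFun := fun v => (k : K) • v
      map_add' := fun v w => smul_add _ v w
      map_smul' := fun c v => by
        exact ZMod.map_smul (DistribSMul.toAddMonoidHom V (k : K)) c v
      invFun := fun v => ((k⁻¹ : Kˣ) : K) • v
      left_inv := fun v => by
        change ((k⁻¹ : Kˣ) : K) • ((k : K) • v) = v
        rw [smul_smul, Units.inv_mul, one_smul]
      right_inv := fun v => by
        change (k : K) • (((k⁻¹ : Kˣ) : K) • v) = v
        rw [smul_smul, Units.mul_inv, one_smul] }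
  map_one' := by ext v; exact one_smul K v
  map_mul' a b := by ext v; exact mul_smul (a : K) (b : K) v

@[simp] theorem scal_apply {K : Type u} [Field K] [Module K V] (k : Kˣ) (v : V) :
    (scal (p := p) K k) v = (k : K) • v := rfl


/-! ### The statements of P3 -/

/-- statement of `card_fix_semi` (P3) -/
def FixSemi : Prop := ∀ {K W : Type u} [Field K] [Finite K] [AddCommGroup W] [Finite W] [Module K W]
    (σ : K ≃+* K) (_ : σ ≠ 1) {r : ℕ} (_ : r.Prime) (g : W ≃+ W) (_ : ∀ (k : K) (w : W), g (k • w) = σ k • g w)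
    (_ : ∀ w : W, (fun w : W => g w)^[r] w = w), Nat.card {w : W // g w = w} ^ r ≤ Nat.card W

/-- statement of `card_norm_semi` (P3) -/
def NormSemi : Prop := ∀ {K W : Type u} [Field K] [Finite K] [AddCommGroup W] [Finite W] [Nontrivial W] [Module K W]
    (σ : K ≃+* K) (_ : σ ≠ 1) {r : ℕ} (_ : r.Prime) (g : W ≃+ W) (_ : ∀ (k : K) (w : W), g (k • w) = σ k • g w)
    (_ : ∀ w : W, (fun w : W => g w)^[r] w = w), ∃ q₀ : ℕ, 2 ≤ q₀ ∧ Nat.card K = q₀ ^ r ∧
      (q₀ - 1) * Nat.card {k : Kˣ // ∀ w : W, ((fun w : W => (k : K) • g w)^[r]) w = w} ≤ q₀ ^ r - 1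

/-! ### The semilinear case -/

theorem iter_eq (x : V ≃ₗ[ZMod p] V) (n : ℕ) (v : V) : (fun w : V => x w)^[n] v = (x ^ n) v := by
  induction n generalizing v with
  | zero => rfl
  | succ n ih =>
    rw [Function.iterate_succ, Function.comp, ih, pow_succ]
    rfl

variable [Finite V]

/-- P2, from the statements of P3 -/
theorem semilinear_case_of (hF : FixSemi.{u}) (hNo : NormSemi.{u}) [Nontrivial V] {G A : Subgroup (V ≃ₗ[ZMod p] V)} 
    (hself : ∀ g ∈ G, (∀ a ∈ A, g * a = a * g) → g ∈ A) 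
    {K : Type u} [Field K] [Module K V] {χ : A →* Kˣ} {σ : G →* (K ≃+* K)} (hK : KS G A K χ σ)
    {h : ℕ} (hh : Half G h) (h2 : 2 ≤ h) :
    ∃ S : Subgroup (V ≃ₗ[ZMod p] V), IsCyclic S ∧ Nat.card S = Nat.card V - 1 ∧
      ∀ g ∈ G, ∀ s ∈ S, g * s * g⁻¹ ∈ S := by
  classical
  have : Finite K := hK.fin
  obtain ⟨r, hr, hrh⟩ := Nat.exists_prime_and_dvd (show h ≠ 1 by omega)
  have : Fact r.Prime := ⟨hr⟩
  -- an element of order `r` fixing a given vector
  have key : ∀ v : V, v ≠ 0 → ∃ y : G, y ^ r = 1 ∧ (y : V ≃ₗ[ZMod p] V) v = v ∧ σ y ≠ 1 := by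
    intro v hv
    obtain ⟨y, hy⟩ := exists_prime_orderOf_dvd_card' (G := MulAction.stabilizer G v) r
      (by rw [hh v hv]; exact hrh)
    refine ⟨y, ?_, y.2, ?_⟩
    · rw [← Subgroup.coe_pow, ← hy, pow_orderOf_eq_one]; rfl
    · intro hσ
      have hyA : ((y : G) : V ≃ₗ[ZMod p] V) ∈ A := hself _ (y : G).2 ((hK.cen _).1 hσ)
      have h1 : (χ ⟨_, hyA⟩ : K) • v = v := by
        rw [← hK.act ⟨_, hyA⟩ v]; exact y.2
      have h3 : (χ ⟨_, hyA⟩ : K) = 1 := by
        have : ((χ ⟨_, hyA⟩ : K) - 1) • v = 0 := by rw [sub_smul, h1, one_smul, sub_self]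
        rcases smul_eq_zero.1 this with h | h
        · exact sub_eq_zero.1 h
        · exact absurd h hv
      have h4 : χ ⟨_, hyA⟩ = 1 := Units.ext h3
      have h5 : (⟨_, hyA⟩ : A) = 1 := hK.inj (h4.trans (map_one χ).symm)
      have h6 : ((y : G) : V ≃ₗ[ZMod p] V) = 1 := congrArg Subtype.val h5
      have h7 : y = 1 := Subtype.ext (Subtype.ext h6)
      rw [h7, orderOf_one] at hy
      exact hr.one_lt.ne hy
  obtain ⟨v₀, hv₀⟩ := exists_ne (0 : V)
  obtain ⟨g₀, hg₀r, -, hσ₀⟩ := key v₀ hv₀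
  set β := σ g₀ with hβ
  have hβr : β ^ r = 1 := by rw [hβ, ← map_pow, hg₀r, map_one]
  -- every nonzero vector is fixed by some `a g₀`
  have cover : ∀ v : V, v ≠ 0 → ∃ k : Kˣ, (scal K k * (g₀ : V ≃ₗ[ZMod p] V) : V ≃ₗ[ZMod p] V) ^ r = 1 ∧
      (k : K) • ((g₀ : V ≃ₗ[ZMod p] V) v) = v := by
    intro v hv
    obtain ⟨y, hyr, hyv, hσy⟩ := key v hv
    obtain ⟨j, hj⟩ := exists_pow_eq hr (α := σ y) (β := β) (by rw [← map_pow, hyr, map_one]) hσy hβr
    have h1 : σ (y ^ j * g₀⁻¹) = 1 := by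
      rw [map_mul, map_pow, hj, map_inv, ← hβ, mul_inv_cancel]
    have h3 : ((y ^ j * g₀⁻¹ : G) : V ≃ₗ[ZMod p] V) ∈ A := hself _ (y ^ j * g₀⁻¹ : G).2 ((hK.cen _).1 h1)
    have h4 : scal K (χ ⟨_, h3⟩) = ((y ^ j * g₀⁻¹ : G) : V ≃ₗ[ZMod p] V) := by
      ext w
      exact (hK.act ⟨_, h3⟩ w).symm
    have h5 : scal K (χ ⟨_, h3⟩) * (g₀ : V ≃ₗ[ZMod p] V) = ((y ^ j : G) : V ≃ₗ[ZMod p] V) := by
      rw [h4, ← Subgroup.coe_mul, inv_mul_cancel_right]
    refine ⟨χ ⟨_, h3⟩, ?_, ?_⟩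
    · rw [h5, ← Subgroup.coe_pow, ← pow_mul, mul_comm, pow_mul, hyr, one_pow]; rfl
    · have h6 : (scal K (χ ⟨_, h3⟩) * (g₀ : V ≃ₗ[ZMod p] V) : V ≃ₗ[ZMod p] V) v = v := by
        rw [h5]
        have h7 : ∀ i : ℕ, ((y ^ i : G) : V ≃ₗ[ZMod p] V) v = v := by
          intro i
          induction i with
          | zero => rfl
          | succ i ih =>
            rw [pow_succ, Subgroup.coe_mul]
            change ((y ^ i : G) : V ≃ₗ[ZMod p] V) ((y : V ≃ₗ[ZMod p] V) v) = v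
            rw [hyv, ih]
        exact h7 j
      exact h6
  -- the numbers
  have hsemi : ∀ (k : Kˣ) (c : K) (v : V), (scal K k * (g₀ : V ≃ₗ[ZMod p] V) : V ≃ₗ[ZMod p] V) (c • v) =
      β c • (scal K k * (g₀ : V ≃ₗ[ZMod p] V) : V ≃ₗ[ZMod p] V) v := by
    intro k c v
    change (k : K) • ((g₀ : V ≃ₗ[ZMod p] V) (c • v)) = β c • ((k : K) • ((g₀ : V ≃ₗ[ZMod p] V) v))
    rw [hK.semi, smul_comm]
  obtain ⟨q, hq2, hqK, hqN⟩ := hNo β hσ₀ hr (g₀ : V ≃ₗ[ZMod p] V).toAddEquiv
    (fun k w => hK.semi g₀ k w) (fun w => by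
      have := iter_eq (g₀ : V ≃ₗ[ZMod p] V) r w
      rw [← Subgroup.coe_pow, hg₀r] at this
      exact this)
  set N := Nat.card {k : Kˣ // ∀ w : V, ((fun w : V => (k : K) • (g₀ : V ≃ₗ[ZMod p] V).toAddEquiv w)^[r]) w = w} with hN
  have hNmem : ∀ k : Kˣ, (scal K k * (g₀ : V ≃ₗ[ZMod p] V) : V ≃ₗ[ZMod p] V) ^ r = 1 ↔
      ∀ w : V, ((fun w : V => (k : K) • (g₀ : V ≃ₗ[ZMod p] V).toAddEquiv w)^[r]) w = w := by
    intro k
    constructor
    · intro hk w
      have := iter_eq (scal K k * (g₀ : V ≃ₗ[ZMod p] V) : V ≃ₗ[ZMod p] V) r w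
      rw [hk] at this
      exact this
    · intro hk
      ext w
      rw [← iter_eq]
      exact hk w
  set b := Module.finrank K V with hb
  have hVb : Nat.card V = (q ^ b) ^ r := by
    rw [Module.natCard_eq_pow_finrank (K := K) (V := V), hqK, ← pow_mul, ← pow_mul, mul_comm]
  have := Fintype.ofFinite V
  have : Fintype Kˣ := Fintype.ofFinite _
  -- fixed points
  have hfix : ∀ k : Kˣ, (scal K k * (g₀ : V ≃ₗ[ZMod p] V) : V ≃ₗ[ZMod p] V) ^ r = 1 →
      (Finset.univ.filter (fun v : V => (k : K) • ((g₀ : V ≃ₗ[ZMod p] V) v) = v)).card ≤ q ^ b := by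
    intro k hk
    have h1 := hF β hσ₀ hr (scal K k * (g₀ : V ≃ₗ[ZMod p] V) : V ≃ₗ[ZMod p] V).toAddEquiv
      (fun c w => hsemi k c w) (fun w => by
        have := iter_eq (scal K k * (g₀ : V ≃ₗ[ZMod p] V) : V ≃ₗ[ZMod p] V) r w
        rw [hk] at this
        exact this)
    rw [hVb] at h1
    have h3 := (Nat.pow_le_pow_iff_left hr.ne_zero).1 h1
    rw [Nat.card_eq_fintype_card, Fintype.card_subtype] at h3
    exact h3
  -- counting
  have hcount : Nat.card V - 1 ≤ N * (q ^ b - 1) := by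
    have h1 : (Finset.univ.erase (0 : V)) ⊆
        (Finset.univ.filter (fun k : Kˣ => (scal K k * (g₀ : V ≃ₗ[ZMod p] V) : V ≃ₗ[ZMod p] V) ^ r = 1)).biUnion
          (fun k => (Finset.univ.filter (fun v : V => (k : K) • ((g₀ : V ≃ₗ[ZMod p] V) v) = v)).erase 0) := by
      intro v hv
      obtain ⟨k, hk, hkv⟩ := cover v (Finset.ne_of_mem_erase hv)
      rw [Finset.mem_biUnion]
      refine ⟨k, by simpa using hk, ?_⟩
      rw [Finset.mem_erase]
      exact ⟨Finset.ne_of_mem_erase hv, by simpa using hkv⟩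
    have h3 := Finset.card_le_card h1
    rw [Finset.card_erase_of_mem (Finset.mem_univ _), Finset.card_univ, ← Nat.card_eq_fintype_card] at h3
    refine h3.trans ?_
    have h4 : (Finset.univ.filter (fun k : Kˣ => (scal K k * (g₀ : V ≃ₗ[ZMod p] V) : V ≃ₗ[ZMod p] V) ^ r = 1)).card = N := by
      rw [hN, Nat.card_eq_fintype_card, Fintype.card_subtype]
      congr 1
      ext k
      simp only [Finset.mem_filter, Finset.mem_univ, true_and]
      exact hNmem k
    rw [← h4]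
    refine Finset.card_biUnion_le_card_mul _ _ _ ?_
    intro k hk
    simp only [Finset.mem_filter, Finset.mem_univ, true_and] at hk
    rw [Finset.card_erase_of_mem (by simp)]
    exact Nat.sub_le_sub_right (hfix k hk) 1
  rw [hVb] at hcount
  have hle := arith hq2 hr.two_le hqN hcount
  have hb1 : b ≤ 1 := by
    have : q ^ b ≤ q ^ 1 := by rwa [pow_one]
    exact (Nat.pow_le_pow_iff_right (by omega)).1 this
  have hb0 : b ≠ 0 := by
    intro h0
    rw [h0, pow_zero, one_pow] at hVb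
    have := Finite.one_lt_card (α := V)
    omega
  have hb1' : b = 1 := by omega
  have hVK : Nat.card V = Nat.card K := by
    rw [hVb, hb1', pow_one, hqK]
  -- the group of scalars
  have hinj : Function.Injective (scal (p := p) (V := V) K) := by
    intro k l hkl
    have h1 : (k : K) • v₀ = (l : K) • v₀ := by
      rw [← scal_apply (p := p), hkl, scal_apply]
    exact Units.ext (smul_left_injective K hv₀ h1)
  refine ⟨(scal (p := p) (V := V) K).range, ?_, ?_, ?_⟩
  · exact isCyclic_of_surjective (scal (p := p) (V := V) K).rangeRestrict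
      (scal (p := p) (V := V) K).rangeRestrict_surjective
  · rw [← Nat.card_congr (MonoidHom.ofInjective hinj).toEquiv, Nat.card_units, hVK]
  · rintro g hg _ ⟨k, rfl⟩
    refine ⟨Units.mapEquiv (σ ⟨g, hg⟩).toMulEquiv k, ?_⟩
    ext v
    change ((Units.mapEquiv (σ ⟨g, hg⟩).toMulEquiv k : Kˣ) : K) • v = g ((k : K) • (g⁻¹ v))
    have h1 := hK.semi ⟨g, hg⟩ k (g⁻¹ v)
    rw [h1]
    have h3 : g (g⁻¹ v) = v := by
      change (g * g⁻¹) v = v
      rw [mul_inv_cancel]; rfl
    change _ = _ • g (g⁻¹ v)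
    rw [h3]
    rfl

end Cfsg.Agent.H813.HT
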